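import Cfsg.Agent.H800.TF8.Ind
import Cfsg.Agent.Characters.Linear

/-!
# Principal series: a linear character of `B` in general position outside of `P` (helper800, S2452, `²F₄(8)`)

* `e2` : the constituents of `Ind_B^P μ` induce irreducible characters of `G`;
* `f2` : if `μ` is not invariant under `t`, then `Ind_B^P μ` is irreducible.
-/

set_option autoImplicit false
set_option linter.unusedSectionVars false

open scoped ComplexConjugate
open Cfsg

namespace Cfsg.Agent.H800.TF8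

open Cfsg.Agent.OddOrderCharacters.Clifford Cfsg.Agent.Characters Cfsg.Agent.H45.GG
open Cfsg.Agent.OddOrderCharacters

variable {G : Type*} [Group G]

/-- a linear character, as a function -/
noncomputable def lc {B : Type*} [Group B] (μ : B →* ℂˣ) : B → ℂ := fun b => ((μ b : ℂˣ) : ℂ)

theorem lc_irr {B : Type*} [Group B] (μ : B →* ℂˣ) : IsIrrCharacter B (lc μ) := Linear.isIrrCharacter_hom μ

theorem lc_comp {B C : Type*} [Group B] [Group C] (μ : B →* ℂˣ) (f : C →* B) :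
    IsIrrCharacter C (lc μ ∘ f) := Linear.isIrrCharacter_hom (μ.comp f)

theorem tw_lc_zero [Finite G] (B : Subgroup G) [Fintype B] (μ : B →* ℂˣ) {w s : G} (hs : s ∈ B)
    (hs' : w⁻¹ * s * w ∈ B) (hne : μ ⟨w⁻¹ * s * w, hs'⟩ ≠ μ ⟨s, hs⟩) : tw B B (lc μ) (lc μ) w = 0 := by
  classical
  have : Fintype (ds B B w) := Fintype.ofFinite _
  have hne' : lc μ ∘ (ds B B w).subtype ≠ lc μ ∘ dh B B w := by
    intro h
    have h1 := congrFun h ⟨⟨s, hs⟩, (mem_ds B B w _).2 hs'⟩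
    exact hne (Units.ext h1.symm)
  have h3 := Core.classInner_irr_ne (lc_comp μ _) (lc_comp μ _) hne'
  rw [← tw_eq_classInner] at h3
  rcases mul_eq_zero.1 h3 with h | h
  · have : 0 < Fintype.card (ds B B w) := Fintype.card_pos
    exact absurd h (inv_ne_zero (by exact_mod_cast this.ne'))
  · exact h

/-- the norm of an induced linear character -/
theorem lin_norm [Fintype G] (B : Subgroup G) [Fintype B] (μ : B →* ℂˣ) {t : G} (ht : t ∉ B)
    (h0 : ∀ x, x ∉ B → ¬ DK B B t x → ∃ w, DK B B w x ∧ ∃ (s : G) (hs : s ∈ B) (hs' : w⁻¹ * s * w ∈ B),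
      μ ⟨w⁻¹ * s * w, hs'⟩ ≠ μ ⟨s, hs⟩) :
    ((∃ (s : G) (hs : s ∈ B) (hs' : t⁻¹ * s * t ∈ B), μ ⟨t⁻¹ * s * t, hs'⟩ ≠ μ ⟨s, hs⟩) →
      classInner (indFun B (lc μ)) (indFun B (lc μ)) = 1) ∧
    ((∀ (s : G) (hs : s ∈ B) (hs' : t⁻¹ * s * t ∈ B), μ ⟨t⁻¹ * s * t, hs'⟩ = μ ⟨s, hs⟩) →
      classInner (indFun B (lc μ)) (indFun B (lc μ)) = 2) := by
  classical
  have : Fintype (ds B B t) := Fintype.ofFinite _
  have hn := norm_two B (lc_irr μ) ht (by
    intro x hx hx'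
    obtain ⟨w, ⟨a, ha, b, hb, rfl⟩, s, hs, hs', hne⟩ := h0 x hx hx'
    have hc := Core.isIrr_isClassFunction (lc_irr μ)
    rw [tw_mul B B hc hc ha hb]
    exact tw_lc_zero B μ hs hs' hne)
  refine ⟨?_, ?_⟩
  · rintro ⟨s, hs, hs', hne⟩
    have hne' : lc μ ∘ (ds B B t).subtype ≠ lc μ ∘ dh B B t := by
      intro h
      have h1 := congrFun h ⟨⟨s, hs⟩, (mem_ds B B t _).2 hs'⟩
      exact hne (Units.ext h1.symm)
    rw [hn, Core.classInner_irr_ne (lc_comp μ _) (lc_comp μ _) hne', add_zero]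
  · intro h
    have he : lc μ ∘ (ds B B t).subtype = lc μ ∘ dh B B t := by
      funext d
      have := h (d : B) (d : B).2 ((mem_ds B B t _).1 d.2)
      exact (congrArg (fun z : ℂˣ => (z : ℂ)) this).symm
    rw [hn, he, Core.classInner_irr_self (lc_comp μ _)]
    norm_num

theorem classInner_equiv {A C : Type*} [Group A] [Group C] [Fintype A] [Fintype C] (e : A ≃* C) (f g : C → ℂ) :
    classInner (f ∘ e) (g ∘ e) = classInner f g := by
  rw [classInner_apply, classInner_apply, Nat.card_congr e.toEquiv]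
  congr 1
  exact Fintype.sum_equiv e.toEquiv _ _ fun _ => rfl

section main

variable [Fintype G] (B P : Subgroup G) [Fintype B] [Fintype P] (hBP : B ≤ P) (μ : B →* ℂˣ)

/-- `μ` on `B` as a subgroup of `P` -/
noncomputable def mP : B.subgroupOf P →* ℂˣ := μ.comp (Subgroup.subgroupOfEquivOfLe hBP).toMonoidHom

theorem indFun_stage : indFun P (indFun (B.subgroupOf P) (lc (mP B P hBP μ))) = indFun B (lc μ) :=
  IndRes.indFun_trans B P hBP (lc μ)

theorem inner_stage [Fintype (B.subgroupOf P)] {ρ : P → ℂ} (hρ : IsIrrCharacter P ρ) :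
    classInner (indFun (B.subgroupOf P) (lc (mP B P hBP μ))) ρ =
      classInner (lc μ) (fun b : B => ρ ⟨b, hBP b.2⟩) := by
  rw [IndRes.classInner_indFun_left _ _ (Core.isIrr_isClassFunction hρ)]
  exact classInner_equiv (Subgroup.subgroupOfEquivOfLe hBP) (lc μ) (fun b : B => ρ ⟨b, hBP b.2⟩)

variable {B P hBP μ}

/-- the norm of `Ind_B^P μ` -/
theorem norm_P {t : G} (htP : t ∈ P) (htB : t ∉ B) (hP : ∀ x ∈ P, x ∈ B ∨ DK B B t x) :
    ((∃ (s : G) (hs : s ∈ B) (hs' : t⁻¹ * s * t ∈ B), μ ⟨t⁻¹ * s * t, hs'⟩ ≠ μ ⟨s, hs⟩) →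
      classInner (indFun (B.subgroupOf P) (lc (mP B P hBP μ))) (indFun (B.subgroupOf P) (lc (mP B P hBP μ))) = 1) ∧
    ((∀ (s : G) (hs : s ∈ B) (hs' : t⁻¹ * s * t ∈ B), μ ⟨t⁻¹ * s * t, hs'⟩ = μ ⟨s, hs⟩) →
      classInner (indFun (B.subgroupOf P) (lc (mP B P hBP μ))) (indFun (B.subgroupOf P) (lc (mP B P hBP μ))) = 2) := by
  classical
  have : Fintype (B.subgroupOf P) := Fintype.ofFinite _
  have key := lin_norm (B.subgroupOf P) (mP B P hBP μ) (t := ⟨t, htP⟩)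
    (fun h => htB (Subgroup.mem_subgroupOf.1 h)) (by
      intro x hx hx'
      exfalso
      rcases hP x x.2 with h | ⟨a, ha, b, hb, e⟩
      · exact hx (Subgroup.mem_subgroupOf.2 h)
      · exact hx' ⟨⟨a, hBP ha⟩, Subgroup.mem_subgroupOf.2 ha, ⟨b, hBP hb⟩, Subgroup.mem_subgroupOf.2 hb,
          Subtype.ext e⟩)
  refine ⟨fun ⟨s, hs, hs', hne⟩ => key.1 ⟨⟨s, hBP hs⟩, Subgroup.mem_subgroupOf.2 hs, Subgroup.mem_subgroupOf.2 hs', hne⟩,
    fun h => key.2 fun s hs hs' => h s (Subgroup.mem_subgroupOf.1 hs) (Subgroup.mem_subgroupOf.1 hs')⟩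

/-- **(F2)** -/
theorem f2 {t : G} (htP : t ∈ P) (htB : t ∉ B) (hP : ∀ x ∈ P, x ∈ B ∨ DK B B t x)
    (hμ : ∃ (s : G) (hs : s ∈ B) (hs' : t⁻¹ * s * t ∈ B), μ ⟨t⁻¹ * s * t, hs'⟩ ≠ μ ⟨s, hs⟩)
    {ρ : P → ℂ} (hρ : IsIrrCharacter P ρ) (hρμ : classInner (fun b : B => ρ ⟨b, hBP b.2⟩) (lc μ) ≠ 0) :
    ρ = indFun (B.subgroupOf P) (lc (mP B P hBP μ)) := by
  classical
  have : Fintype (B.subgroupOf P) := Fintype.ofFinite _
  have h1 := (norm_P (hBP := hBP) htP htB hP).1 hμ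
  have hi : IsCharacter P (indFun (B.subgroupOf P) (lc (mP B P hBP μ))) :=
    IndRes.isCharacter_indFun _ (Core.isIrr_isCharacter (lc_irr _))
  have h2 := Core.isIrr_of_classInner_self hi h1
  by_contra hne
  have h3 := Core.classInner_irr_ne h2 hρ (Ne.symm hne)
  rw [inner_stage B P hBP μ hρ] at h3
  apply hρμ
  rw [← Core.classInner_conj_symm, h3, map_zero]

/-- `ρ` vanishes on the elements without conjugates in `B` -/
theorem f2_zero {t : G} (htP : t ∈ P) (htB : t ∉ B) (hP : ∀ x ∈ P, x ∈ B ∨ DK B B t x)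
    (hμ : ∃ (s : G) (hs : s ∈ B) (hs' : t⁻¹ * s * t ∈ B), μ ⟨t⁻¹ * s * t, hs'⟩ ≠ μ ⟨s, hs⟩)
    {ρ : P → ℂ} (hρ : IsIrrCharacter P ρ) (hρμ : classInner (fun b : B => ρ ⟨b, hBP b.2⟩) (lc μ) ≠ 0)
    {y : P} (hy : ∀ g : G, g⁻¹ * y * g ∉ B) : ρ y = 0 := by
  rw [f2 htP htB hP hμ hρ hρμ]
  exact IndRes.indFun_eq_zero_of_forall _ _ fun x h => hy x (Subgroup.mem_subgroupOf.1 h)

/-- **(E2)** -/
theorem e2 {t : G} (htP : t ∈ P) (htB : t ∉ B) (hP : ∀ x ∈ P, x ∈ B ∨ DK B B t x)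
    (hG : ∀ x ∉ P, ∃ w, DK B B w x ∧ ∃ (s : G) (hs : s ∈ B) (hs' : w⁻¹ * s * w ∈ B),
      μ ⟨w⁻¹ * s * w, hs'⟩ ≠ μ ⟨s, hs⟩)
    {ρ : P → ℂ} (hρ : IsIrrCharacter P ρ) (hρμ : classInner (fun b : B => ρ ⟨b, hBP b.2⟩) (lc μ) ≠ 0) :
    IsIrrCharacter G (indFun P ρ) := by
  classical
  have : Fintype (B.subgroupOf P) := Fintype.ofFinite _
  have hst := indFun_stage B P hBP μ
  have hnP := norm_P (hBP := hBP) (μ := μ) htP htB hP
  have hnG := lin_norm B μ htB (by
    intro x hx hx'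
    by_cases hxP : x ∈ P
    · rcases hP x hxP with h | h
      · exact (hx h).elim
      · exact (hx' h).elim
    · exact hG x hxP)
  set α := indFun (B.subgroupOf P) (lc (mP B P hBP μ)) with hα
  have hi : IsCharacter P α := IndRes.isCharacter_indFun _ (Core.isIrr_isCharacter (lc_irr _))
  have hαρ : classInner α ρ ≠ 0 := by
    rw [hα, inner_stage B P hBP μ hρ]
    intro h
    apply hρμ
    rw [← Core.classInner_conj_symm, h, map_zero]
  have hne : ∀ χ : P → ℂ, IsIrrCharacter P χ → indFun P χ ≠ 0 := by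
    intro χ hχ h
    have h1 := congrFun h 1
    rw [IndRes.indFun_apply_one, Pi.zero_apply] at h1
    rcases mul_eq_zero.1 h1 with h2 | h2
    · exact Subgroup.index_ne_zero_of_finite (H := P) (by exact_mod_cast h2)
    · exact Core.isIrr_apply_one_ne_zero hχ h2
  by_cases hμ : ∃ (s : G) (hs : s ∈ B) (hs' : t⁻¹ * s * t ∈ B), μ ⟨t⁻¹ * s * t, hs'⟩ ≠ μ ⟨s, hs⟩
  · have h1 := Core.isIrr_of_classInner_self hi (hnP.1 hμ)
    have h2 : α = ρ := by
      by_contra h3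
      exact hαρ (Core.classInner_irr_ne h1 hρ h3)
    have h3 := hnG.1 hμ
    rw [← hst, h2] at h3
    exact Core.isIrr_of_classInner_self (IndRes.isCharacter_indFun _ (Core.isIrr_isCharacter hρ)) h3
  · push Not at hμ
    obtain ⟨a, b, ha, hb, hab, e⟩ := exists_two hi (hnP.2 hμ)
    have h3 := hnG.2 hμ
    rw [← hst, e, IndRes.indFun_add] at h3
    have h4 : ρ = a ∨ ρ = b := by
      by_contra hc
      push Not at hc
      apply hαρ
      rw [e, Core.classInner_add_left, Core.classInner_irr_ne ha hρ (Ne.symm hc.1),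
        Core.classInner_irr_ne hb hρ (Ne.symm hc.2), add_zero]
    have ca := IndRes.isCharacter_indFun P (Core.isIrr_isCharacter ha)
    have cb := IndRes.isCharacter_indFun P (Core.isIrr_isCharacter hb)
    rcases h4 with rfl | rfl
    · exact irr_of_norm_two ca cb (hne _ ha) (hne _ hb) h3
    · rw [add_comm] at h3
      exact irr_of_norm_two cb ca (hne _ hb) (hne _ ha) h3

/-- a character `χ` over `ρ` with `Ind ρ` irreducible vanishes on the elements without conjugates in `P` -/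
theorem zero_of_irr {ρ : P → ℂ} (hρ : IsIrrCharacter P ρ) (hI : IsIrrCharacter G (indFun P ρ)) {χ : G → ℂ}
    (hχ : IsIrrCharacter G χ) (hχρ : classInner (fun h : P => χ h) ρ ≠ 0) {x : G} (hx : ∀ g : G, g⁻¹ * x * g ∉ P) :
    χ x = 0 := by
  have h1 : classInner χ (indFun P ρ) ≠ 0 := by
    rw [IndRes.classInner_indFun_right P ρ (Core.isIrr_isClassFunction hχ)]
    exact hχρ
  have h2 : χ = indFun P ρ := by
    by_contra hne
    exact h1 (Core.classInner_irr_ne hχ hI hne)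
  rw [h2]
  exact IndRes.indFun_eq_zero_of_forall P _ hx

end main

end Cfsg.Agent.H800.TF8
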